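import Cfsg.Agent.Ore44.Cnt
import Mathlib.LinearAlgebra.Transvection.Basic

/-!
Products with prescribed characteristic polynomials.
-/

set_option autoImplicit false

namespace Cfsg.Agent.Ore44

open Polynomial Module

section blk

variable {F : Type*} [Field F] {W : Type*} [AddCommGroup W] [Module F W]

/-- block triangular operator -/
def tri (b : F) (β : W →ₗ[F] F) (B : W →ₗ[F] W) : (F × W) →ₗ[F] (F × W) where
  toFun p := (b * p.1 + β p.2, B p.2)
  map_add' p q := by
    ext
    · simp only [Prod.fst_add, Prod.snd_add, map_add]; ring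
    · simp only [Prod.snd_add, map_add]
  map_smul' c p := by
    ext
    · simp only [Prod.smul_fst, Prod.smul_snd, map_smul, smul_eq_mul, RingHom.id_apply]; ring
    · simp only [Prod.smul_snd, map_smul, RingHom.id_apply]

theorem tri_apply (b : F) (β : W →ₗ[F] F) (B : W →ₗ[F] W) (p : F × W) : tri b β B p = (b * p.1 + β p.2, B p.2) := rfl

variable [FiniteDimensional F W]

theorem det_tri {b : F} (hb : b ≠ 0) (β : W →ₗ[F] F) (B : W →ₗ[F] W) : LinearMap.det (tri b β B) = b * LinearMap.det B := by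
  have h1 : tri b β B = (LinearMap.prodMap (b • (LinearMap.id : F →ₗ[F] F)) B) ∘ₗ
      (LinearMap.transvection ((b⁻¹ • β) ∘ₗ LinearMap.snd F F W) ((1 : F), (0 : W))) := by
    apply LinearMap.ext
    intro p
    rw [LinearMap.comp_apply, LinearMap.transvection.apply, LinearMap.prodMap_apply, tri_apply]
    ext
    · simp only [LinearMap.comp_apply, LinearMap.snd_apply, LinearMap.smul_apply, smul_eq_mul, Prod.fst_add, Prod.smul_fst,
        LinearMap.id_apply, mul_one]
      field_simp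
    · simp only [Prod.snd_add, Prod.smul_snd, smul_zero, add_zero]
  rw [h1, LinearMap.det_comp, LinearMap.transvection.det, LinearMap.det_prodMap, LinearMap.det_smul, LinearMap.det_id, finrank_self,
    pow_one, mul_one]
  simp

/-- **main block theorem** -/
theorem block [Finite F] (A : (F × W) ≃ₗ[F] (F × W)) (hy : (A (1, 0)).2 ≠ 0) (hA : (A.symm (1, 0)).1 ≠ 0) {b : F} (hb : b ≠ 0)
    {f' : F[X]} (hf' : f'.Monic) (hfd : f'.natDegree = finrank F W) (hf0 : f'.coeff 0 ≠ 0) {g : F[X]} (hg : g.Monic)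
    (hgd : g.natDegree = finrank F (F × W))
    (hdet : (-1) ^ finrank F (F × W) * g.coeff 0 = (b * ((-1) ^ finrank F W * f'.coeff 0)) * LinearMap.det (A : (F × W) →ₗ[F] (F × W))) :
    ∃ (β : W →ₗ[F] F) (B : W →ₗ[F] W) (u : W), B.charpoly = f' ∧ Cyc B u ∧ Cyc (tri b β B ∘ₗ (A : (F × W) →ₗ[F] (F × W))) (1, 0) ∧
      (tri b β B ∘ₗ (A : (F × W) →ₗ[F] (F × W))).charpoly = g := by
  set y := (A (1, 0)).2 with hydef
  -- the compression of `A`
  let A1 : W →ₗ[F] W := (LinearMap.snd F F W) ∘ₗ (A : (F × W) →ₗ[F] (F × W)) ∘ₗ (LinearMap.inr F F W)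
  have hA1 : ∀ w, A1 w = (A (0, w)).2 := fun w => rfl
  have hinj : Function.Injective A1 := by
    rw [← LinearMap.ker_eq_bot, LinearMap.ker_eq_bot']
    intro w hw
    rw [hA1] at hw
    have h1 : A (0, w) = (A (0, w)).1 • ((1 : F), (0 : W)) := by
      ext
      · simp
      · rw [hw]; simp
    have h2 : ((0 : F), w) = (A (0, w)).1 • A.symm (1, 0) := by
      rw [← map_smul, ← h1, A.symm_apply_apply]
    have h3 := congrArg Prod.fst h2
    rw [Prod.smul_fst, smul_eq_mul] at h3
    have h4 : (A (0, w)).1 = 0 := (mul_eq_zero.1 h3.symm).resolve_right hA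
    rw [h4, zero_smul] at h2
    exact congrArg Prod.snd h2
  let A0 : W ≃ₗ[F] W := LinearEquiv.ofBijective A1 ⟨hinj, LinearMap.injective_iff_surjective.1 hinj⟩
  have hA0 : ∀ w, A0 w = (A (0, w)).2 := fun w => rfl
  obtain ⟨E, hE1, hE2⟩ := exists_two A0.symm hy hy
  have hS : Cyc ((A0.symm : W →ₗ[F] W) ∘ₗ (E : W →ₗ[F] W)) (A0.symm y) := hE2.conj A0.symm (fun x => rfl)
  obtain ⟨φ, hφ⟩ := hS.place hf' hfd
  set B : W →ₗ[F] W := (A0.symm : W →ₗ[F] W) ∘ₗ (E : W →ₗ[F] W) + φ.smulRight (A0.symm y) with hB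
  have hBc : Cyc B (A0.symm y) := hS.add φ
  have hBdet : LinearMap.det B = (-1) ^ finrank F W * f'.coeff 0 := by rw [LinearMap.det_eq_sign_charpoly_coeff, hφ]
  have hBdet0 : LinearMap.det B ≠ 0 := by
    rw [hBdet]
    exact mul_ne_zero (pow_ne_zero _ (neg_ne_zero.2 one_ne_zero)) hf0
  have hAB : ∀ x, A0 (B x) = E x + φ x • y := by
    intro x
    rw [hB, LinearMap.add_apply, map_add, LinearMap.comp_apply, LinearMap.smulRight_apply, map_smul]
    change A0 (A0.symm (E x)) + φ x • A0 (A0.symm y) = _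
    rw [A0.apply_symm_apply, A0.apply_symm_apply]
  have hABc : Cyc ((E : W →ₗ[F] W) + φ.smulRight y) y := hE1.add φ
  have hBsurj : Function.Surjective B := by
    have h1 := (LinearMap.equivOfDetNeZero B hBdet0).surjective
    exact h1
  -- the operator with zero row
  set T0 := tri b 0 B ∘ₗ (A : (F × W) →ₗ[F] (F × W)) with hT0
  have hT0' : ∀ p, T0 p = (b * (A p).1, B (A p).2) := by
    intro p
    rw [hT0, LinearMap.comp_apply, tri_apply, LinearMap.zero_apply, add_zero]
    rfl
  have hcyc : Cyc T0 ((1 : F), (0 : W)) := by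
    intro K h1 hK
    have hfst : ∀ p : F × W, p ∈ K ↔ ((0 : F), p.2) ∈ K := by
      intro p
      have h2 : p = p.1 • ((1 : F), (0 : W)) + (0, p.2) := by ext <;> simp
      constructor
      · intro hp
        have h3 := K.sub_mem hp (K.smul_mem p.1 h1)
        rwa [show p - p.1 • ((1 : F), (0 : W)) = (0, p.2) from by ext <;> simp] at h3
      · intro hp
        rw [h2]
        exact K.add_mem (K.smul_mem _ h1) hp
    -- the preimage
    let K' : Submodule F W := (K.comap (LinearMap.inr F F W)).comap B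
    have hK' : ∀ w, w ∈ K' ↔ ((0 : F), B w) ∈ K := fun w => Iff.rfl
    have h5 : K' = ⊤ := by
      apply hABc K'
      · rw [hK']
        have h6 := hK _ h1
        rw [hT0', hfst] at h6
        exact h6
      · intro x hx
        rw [hK'] at hx ⊢
        have h6 := hK _ hx
        rw [hT0', hfst] at h6
        have h7 : (A (0, B x)).2 = ((E : W →ₗ[F] W) + φ.smulRight y) x := by
          rw [← hA0, hAB]; rfl
        rw [h7] at h6
        exact h6
    rw [eq_top_iff]
    rintro p -
    rw [hfst]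
    obtain ⟨w, hw⟩ := hBsurj p.2
    rw [← hw, ← hK', h5]
    trivial
  obtain ⟨ψ, hψ⟩ := hcyc.place hg hgd
  -- the functional kills `A⁻¹ e`
  have hT0det : LinearMap.det T0 = (b * ((-1) ^ finrank F W * f'.coeff 0)) * LinearMap.det (A : (F × W) →ₗ[F] (F × W)) := by
    rw [hT0, LinearMap.det_comp, det_tri hb, hBdet]
  have hT0det0 : LinearMap.det T0 ≠ 0 := by
    rw [hT0det, ← hBdet]
    refine mul_ne_zero (mul_ne_zero hb hBdet0) ?_
    rw [← LinearEquiv.coe_det]
    exact Units.ne_zero _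
  have hTe : T0 (A.symm (1, 0)) = b • ((1 : F), (0 : W)) := by
    rw [hT0', A.apply_symm_apply]
    ext <;> simp
  have hψ0 : ψ (A.symm (1, 0)) = 0 := by
    let Te := LinearMap.equivOfDetNeZero T0 hT0det0
    have hTe' : ∀ x, Te x = T0 x := fun x => rfl
    have h1 : T0 + ψ.smulRight ((1 : F), (0 : W)) = (LinearMap.transvection (ψ ∘ₗ (Te.symm : (F × W) →ₗ[F] (F × W))) ((1 : F), (0 : W))) ∘ₗ T0 := by
      apply LinearMap.ext
      intro x
      change T0 x + ψ x • _ = T0 x + ψ (Te.symm (Te x)) • _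
      rw [Te.symm_apply_apply]
    have h2 := LinearMap.det_eq_sign_charpoly_coeff (T0 + ψ.smulRight ((1 : F), (0 : W)))
    rw [hψ, h1, LinearMap.det_comp, LinearMap.transvection.det, hdet, ← hT0det] at h2
    have h3 := mul_eq_right₀ hT0det0 |>.1 h2
    have h4 : ψ (Te.symm ((1 : F), (0 : W))) = 0 := by
      have h5 : (ψ ∘ₗ (Te.symm : (F × W) →ₗ[F] (F × W))) ((1 : F), (0 : W)) = 0 := by linear_combination h3
      exact h5
    have h6 : A.symm (1, 0) = b • Te.symm ((1 : F), (0 : W)) := by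
      apply Te.injective
      rw [map_smul, Te.apply_symm_apply, hTe', hTe]
    rw [h6, map_smul, h4, smul_zero]
  refine ⟨ψ ∘ₗ (A.symm : (F × W) →ₗ[F] (F × W)) ∘ₗ (LinearMap.inr F F W), B, A0.symm y, hφ, hBc, ?_⟩
  have hfin : tri b (ψ ∘ₗ (A.symm : (F × W) →ₗ[F] (F × W)) ∘ₗ (LinearMap.inr F F W)) B ∘ₗ (A : (F × W) →ₗ[F] (F × W)) =
      T0 + ψ.smulRight ((1 : F), (0 : W)) := by
    apply LinearMap.ext
    intro x
    rw [LinearMap.comp_apply, LinearMap.add_apply, LinearMap.smulRight_apply, hT0', tri_apply]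
    have h1 : ψ (A.symm ((0 : F), (A x).2)) = ψ x := by
      have h2 : ((0 : F), (A x).2) = A x - (A x).1 • ((1 : F), (0 : W)) := by ext <;> simp
      rw [h2, map_sub, map_smul, A.symm_apply_apply, map_sub, map_smul, hψ0, smul_zero, sub_zero]
    ext
    · change b * (A x).1 + ψ (A.symm ((0 : F), (A x).2)) = _
      rw [h1]
      simp
    · change B (A x).2 = _
      simp
  rw [hfin]
  exact ⟨hcyc.add ψ, hψ⟩

end blk

end Cfsg.Agent.Ore44
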