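import Cfsg.Agent.Ore44.Cyc
import Mathlib.LinearAlgebra.Basis.Fin
import Mathlib.LinearAlgebra.Basis.VectorSpace
import Mathlib.GroupTheory.GroupAction.Quotient
import Mathlib.FieldTheory.Finiteness

/-!
More than half of the invertible operators have a given cyclic vector.
-/

set_option autoImplicit false

namespace Cfsg.Agent.Ore44

open Polynomial Module

section cnt

variable {F : Type*} [Field F] {V : Type*} [AddCommGroup V] [Module F V] [FiniteDimensional F V]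

theorem exists_basis {m : ℕ} (hm : finrank F V = m + 1) {y : V} (hy : y ≠ 0) : ∃ b : Basis (Fin (m + 1)) F V, b 0 = y := by
  obtain ⟨W, hW⟩ := Submodule.exists_isCompl (F ∙ y)
  have h1 : finrank F (F ∙ y) = 1 := finrank_span_singleton hy
  have h2 := Submodule.finrank_add_eq_of_isCompl hW
  have hWm : finrank F W = m := by omega
  let bW := finBasisOfFinrankEq F W hWm
  refine ⟨Basis.mkFinCons y bW ?_ ?_, ?_⟩
  · intro c x hx h
    have h3 : c • y ∈ (F ∙ y) ⊓ W := by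
      refine ⟨Submodule.mem_span_singleton.2 ⟨c, rfl⟩, ?_⟩
      have h4 : c • y = -x := eq_neg_of_add_eq_zero_left h
      rw [h4]
      exact W.neg_mem hx
    rw [hW.inf_eq_bot, Submodule.mem_bot] at h3
    exact (smul_eq_zero.1 h3).resolve_right hy
  · intro z
    have h3 : z ∈ (F ∙ y) ⊔ W := by rw [hW.sup_eq_top]; trivial
    obtain ⟨a, ha, w, hw, rfl⟩ := Submodule.mem_sup.1 h3
    obtain ⟨c, rfl⟩ := Submodule.mem_span_singleton.1 ha
    refine ⟨-c, ?_⟩
    rw [neg_smul, add_comm (c • y), add_neg_cancel_right]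
    exact hw
  · rw [Basis.coe_mkFinCons, Fin.cons_zero]

variable {m : ℕ} (b : Basis (Fin (m + 1)) F V)

/-- companion operator -/
noncomputable def cmpL (c : Fin (m + 1) → F) : V →ₗ[F] V := b.constr F (Fin.lastCases (∑ j, c j • b j) (fun i => b i.succ))

theorem cmpL_castSucc (c : Fin (m + 1) → F) (i : Fin m) : cmpL b c (b i.castSucc) = b i.succ := by
  rw [cmpL, Basis.constr_basis, Fin.lastCases_castSucc]

theorem cmpL_last (c : Fin (m + 1) → F) : cmpL b c (b (Fin.last m)) = ∑ j, c j • b j := by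
  rw [cmpL, Basis.constr_basis, Fin.lastCases_last]

theorem cmpL_surj {c : Fin (m + 1) → F} (hc : c 0 ≠ 0) : Function.Surjective (cmpL b c) := by
  rw [← LinearMap.range_eq_top, eq_top_iff, ← b.span_eq, Submodule.span_le]
  have hs : ∀ i : Fin m, b i.succ ∈ LinearMap.range (cmpL b c) := fun i => ⟨_, cmpL_castSucc b c i⟩
  rintro _ ⟨i, rfl⟩
  refine Fin.cases ?_ hs i
  have h1 : ∑ j, c j • b j ∈ LinearMap.range (cmpL b c) := ⟨_, cmpL_last b c⟩
  rw [Fin.sum_univ_succ] at h1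
  have h2 : ∑ i : Fin m, c i.succ • b i.succ ∈ LinearMap.range (cmpL b c) := Submodule.sum_mem _ fun i _ => Submodule.smul_mem _ _ (hs i)
  have h3 := (Submodule.add_mem_iff_left _ h2).1 h1
  have h4 := Submodule.smul_mem _ (c 0)⁻¹ h3
  rwa [smul_smul, inv_mul_cancel₀ hc, one_smul] at h4

/-- invertible companion operator -/
noncomputable def cmp (x : {x : F // x ≠ 0}) (f : Fin m → F) : V ≃ₗ[F] V :=
  LinearEquiv.ofBijective (cmpL b (Fin.cons x.1 f)) ⟨LinearMap.injective_iff_surjective.2 (cmpL_surj b (by simpa using x.2)),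
    cmpL_surj b (by simpa using x.2)⟩

theorem cmp_castSucc (x : {x : F // x ≠ 0}) (f : Fin m → F) (i : Fin m) : cmp b x f (b i.castSucc) = b i.succ :=
  cmpL_castSucc b _ i

theorem cmp_last (x : {x : F // x ≠ 0}) (f : Fin m → F) : cmp b x f (b (Fin.last m)) = ∑ j, (Fin.cons x.1 f : Fin (m + 1) → F) j • b j :=
  cmpL_last b _

theorem cyc_cmp (x : {x : F // x ≠ 0}) (f : Fin m → F) : Cyc (cmp b x f : V →ₗ[F] V) (b 0) := by
  intro K h0 hK
  rw [eq_top_iff, ← b.span_eq, Submodule.span_le]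
  rintro _ ⟨i, rfl⟩
  change b i ∈ K
  refine Fin.induction h0 (fun i hi => ?_) i
  have h1 := hK _ hi
  rwa [LinearEquiv.coe_coe, cmp_castSucc] at h1

theorem finite_lin [Finite F] : Finite (V ≃ₗ[F] V) := by
  have : Finite V := Module.finite_of_finite F
  exact Finite.of_injective (fun e : V ≃ₗ[F] V => (e : V → V)) DFunLike.coe_injective

/-- **more than half** of the invertible operators have `y` as a cyclic vector -/
theorem half_cyc [Finite F] {y : V} (hy : y ≠ 0) : Nat.card (V ≃ₗ[F] V) < 2 * Nat.card {E : V ≃ₗ[F] V // Cyc (E : V →ₗ[F] V) y} := by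
  classical
  have hfin : Finite (V ≃ₗ[F] V) := finite_lin
  have hfV : Finite V := Module.finite_of_finite F
  have hpos : 0 < finrank F V := by
    rw [finrank_pos_iff]
    exact ⟨⟨y, 0, hy⟩⟩
  obtain ⟨m, hm⟩ : ∃ m, finrank F V = m + 1 := ⟨finrank F V - 1, by omega⟩
  obtain ⟨b, hb⟩ := exists_basis hm hy
  set St := MulAction.stabilizer (V ≃ₗ[F] V) y with hSt
  have hSt' : ∀ g : St, (g : V ≃ₗ[F] V) y = y := fun g => g.2
  let Φ : St × ({x : F // x ≠ 0} × (Fin m → F)) → {E : V ≃ₗ[F] V // Cyc (E : V →ₗ[F] V) y} := fun t =>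
    ⟨(t.1 : V ≃ₗ[F] V) * cmp b t.2.1 t.2.2 * (t.1 : V ≃ₗ[F] V)⁻¹, by
      have h1 := (cyc_cmp b t.2.1 t.2.2).conj (t.1 : V ≃ₗ[F] V)
        (S := (((t.1 : V ≃ₗ[F] V) * cmp b t.2.1 t.2.2 * (t.1 : V ≃ₗ[F] V)⁻¹ : V ≃ₗ[F] V) : V →ₗ[F] V)) (fun x => by
          change (t.1 : V ≃ₗ[F] V) (cmp b t.2.1 t.2.2 ((t.1 : V ≃ₗ[F] V).symm ((t.1 : V ≃ₗ[F] V) x))) = _
          rw [LinearEquiv.symm_apply_apply]; rfl)
      rwa [hb, hSt'] at h1⟩
  have hΦ : Function.Injective Φ := by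
    rintro ⟨g, x, f⟩ ⟨g', x', f'⟩ h
    have h1 : (g : V ≃ₗ[F] V) * cmp b x f * (g : V ≃ₗ[F] V)⁻¹ = (g' : V ≃ₗ[F] V) * cmp b x' f' * (g' : V ≃ₗ[F] V)⁻¹ := congrArg Subtype.val h
    have e1 : ∀ v, (g : V ≃ₗ[F] V) (cmp b x f v) = ((g : V ≃ₗ[F] V) * cmp b x f * (g : V ≃ₗ[F] V)⁻¹) ((g : V ≃ₗ[F] V) v) := by
      intro v
      change _ = (g : V ≃ₗ[F] V) (cmp b x f ((g : V ≃ₗ[F] V).symm ((g : V ≃ₗ[F] V) v)))
      rw [LinearEquiv.symm_apply_apply]
    have e2 : ∀ v, (g' : V ≃ₗ[F] V) (cmp b x' f' v) = ((g' : V ≃ₗ[F] V) * cmp b x' f' * (g' : V ≃ₗ[F] V)⁻¹) ((g' : V ≃ₗ[F] V) v) := by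
      intro v
      change _ = (g' : V ≃ₗ[F] V) (cmp b x' f' ((g' : V ≃ₗ[F] V).symm ((g' : V ≃ₗ[F] V) v)))
      rw [LinearEquiv.symm_apply_apply]
    have h2 : ∀ i, (g : V ≃ₗ[F] V) (b i) = (g' : V ≃ₗ[F] V) (b i) := by
      intro i
      refine Fin.induction ?_ (fun i hi => ?_) i
      · rw [hb, hSt', hSt']
      · have h3 := e1 (b i.castSucc)
        have h4 := e2 (b i.castSucc)
        rw [cmp_castSucc] at h3 h4
        rw [h3, h4, h1, hi]
    have hg : g = g' := Subtype.ext (LinearEquiv.toLinearMap_injective (b.ext h2))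
    subst hg
    have h3 : cmp b x f = cmp b x' f' := mul_left_cancel (mul_right_cancel h1)
    have h4 := LinearEquiv.congr_fun h3 (b (Fin.last m))
    rw [cmp_last, cmp_last] at h4
    have h5 : (Fin.cons x.1 f : Fin (m + 1) → F) = Fin.cons x'.1 f' := by
      have h6 := congrArg b.equivFun h4
      rw [← b.equivFun_symm_apply, ← b.equivFun_symm_apply, LinearEquiv.apply_symm_apply, LinearEquiv.apply_symm_apply] at h6
      exact h6
    rw [Fin.cons_inj] at h5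
    rw [Subtype.ext h5.1, h5.2]
  have h1 := Nat.card_le_card_of_injective Φ hΦ
  rw [Nat.card_prod, Nat.card_prod, Nat.card_fun, Nat.card_fin] at h1
  have hq : Nat.card {x : F // x ≠ 0} + 1 = Nat.card F := by
    rw [← Finite.card_option]
    exact Nat.card_congr (Equiv.optionSubtypeNe 0)
  have hV : Nat.card {x : V // x ≠ 0} + 1 = Nat.card F ^ (m + 1) := by
    rw [← Finite.card_option, ← hm, ← Module.natCard_eq_pow_finrank]
    exact Nat.card_congr (Equiv.optionSubtypeNe 0)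
  have h2 : Nat.card (V ≃ₗ[F] V) ≤ Nat.card {x : V // x ≠ 0} * Nat.card St := by
    rw [Subgroup.card_eq_card_quotient_mul_card_subgroup St]
    apply Nat.mul_le_mul_right
    rw [← Nat.card_congr (MulAction.orbitEquivQuotientStabilizer (V ≃ₗ[F] V) y)]
    refine Nat.card_le_card_of_injective (fun o : MulAction.orbit (V ≃ₗ[F] V) y => (⟨o.1, ?_⟩ : {x : V // x ≠ 0})) ?_
    · obtain ⟨g, hg⟩ := o.2
      rw [← hg]
      change g y ≠ 0
      exact fun h => hy (g.map_eq_zero_iff.1 h)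
    · intro o o' h
      have h' : (⟨o.1, _⟩ : {x : V // x ≠ 0}) = ⟨o'.1, _⟩ := h
      exact Subtype.ext (Subtype.mk.inj h')
  have hq2 : 2 ≤ Nat.card F := Finite.one_lt_card
  obtain ⟨k, hk⟩ : ∃ k, Nat.card F = k + 2 := ⟨Nat.card F - 2, by omega⟩
  have hk1 : Nat.card {x : F // x ≠ 0} = k + 1 := by omega
  have hst : 0 < Nat.card St := Nat.card_pos
  rw [hk1, hk] at h1
  rw [hk] at hV
  have h3 : Nat.card {x : V // x ≠ 0} < 2 * ((k + 1) * (k + 2) ^ m) := by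
    have h4 : (k + 2) ^ (m + 1) = (k + 2) ^ m * (k + 2) := pow_succ _ _
    have h5 : 2 * ((k + 1) * (k + 2) ^ m) = (k + 2) ^ m * (k + 2) + k * (k + 2) ^ m := by ring
    rw [h5]
    have h6 : 0 ≤ k * (k + 2) ^ m := Nat.zero_le _
    omega
  calc Nat.card (V ≃ₗ[F] V) ≤ Nat.card {x : V // x ≠ 0} * Nat.card St := h2
    _ < 2 * ((k + 1) * (k + 2) ^ m) * Nat.card St := Nat.mul_lt_mul_of_pos_right h3 hst
    _ = 2 * (Nat.card St * ((k + 1) * (k + 2) ^ m)) := by ring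
    _ ≤ _ := Nat.mul_le_mul_left _ h1

/-- two conditions at once -/
theorem exists_two [Finite F] (G : V ≃ₗ[F] V) {y y' : V} (hy : y ≠ 0) (hy' : y' ≠ 0) :
    ∃ E : V ≃ₗ[F] V, Cyc (E : V →ₗ[F] V) y ∧ Cyc ((E * G : V ≃ₗ[F] V) : V →ₗ[F] V) y' := by
  classical
  have hfin : Finite (V ≃ₗ[F] V) := finite_lin
  have : Fintype (V ≃ₗ[F] V) := Fintype.ofFinite _
  have h1 := half_cyc (F := F) hy
  have h2 := half_cyc (F := F) hy'
  have h3 : Nat.card {E : V ≃ₗ[F] V // Cyc ((E * G : V ≃ₗ[F] V) : V →ₗ[F] V) y'} = Nat.card {E : V ≃ₗ[F] V // Cyc (E : V →ₗ[F] V) y'} :=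
    Nat.card_congr ((Equiv.mulRight G).subtypeEquiv fun E => Iff.rfl)
  rw [← h3] at h2
  by_contra hno
  push_neg at hno
  rw [Nat.card_eq_fintype_card, Nat.card_eq_fintype_card, Fintype.card_subtype] at h1 h2
  have h4 : Disjoint (Finset.univ.filter fun E : V ≃ₗ[F] V => Cyc (E : V →ₗ[F] V) y)
      (Finset.univ.filter fun E : V ≃ₗ[F] V => Cyc ((E * G : V ≃ₗ[F] V) : V →ₗ[F] V) y') := by
    rw [Finset.disjoint_filter]
    intro E _ hE
    exact hno E hE
  have h5 := Finset.card_union_of_disjoint h4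
  have h6 := Finset.card_le_univ ((Finset.univ.filter fun E : V ≃ₗ[F] V => Cyc (E : V →ₗ[F] V) y) ∪
      (Finset.univ.filter fun E : V ≃ₗ[F] V => Cyc ((E * G : V ≃ₗ[F] V) : V →ₗ[F] V) y'))
  omega

end cnt

end Cfsg.Agent.Ore44
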