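import Cfsg.Agent.Ore44.Blk
import Mathlib.LinearAlgebra.Eigenspace.Minpoly
import Mathlib.LinearAlgebra.Eigenspace.Basic

/-!
Non-scalar elements of determinant one are commutators.
-/

set_option autoImplicit false

namespace Cfsg.Agent.Ore44

open Polynomial Module

section blk

variable {F : Type*} [Field F] {W : Type*} [AddCommGroup W] [Module F W]

theorem aeval_inter {V : Type*} [AddCommGroup V] [Module F V] {T : V →ₗ[F] V} {B : W →ₗ[F] W} (π : V →ₗ[F] W)
    (h : ∀ x, π (T x) = B (π x)) (p : F[X]) (x : V) : π (aeval T p x) = aeval B p (π x) := by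
  induction p using Polynomial.induction_on' generalizing x with
  | add p q hp hq => rw [map_add, LinearMap.add_apply, map_add, hp, hq, map_add]; rfl
  | monomial n a =>
    rw [aeval_monomial, aeval_monomial]
    have h1 : ∀ (n : ℕ) (x : V), π ((T ^ n) x) = (B ^ n) (π x) := by
      intro n
      induction n with
      | zero => intro x; rfl
      | succ n ih =>
        intro x
        rw [pow_succ, pow_succ]
        change π ((T ^ n) (T x)) = (B ^ n) (B (π x))
        rw [ih, h]
    change π (a • (T ^ n) x) = a • (B ^ n) (π x)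
    rw [map_smul, h1]

theorem aeval_eig {V : Type*} [AddCommGroup V] [Module F V] {T : V →ₗ[F] V} {e : V} {b : F} (h : T e = b • e) (p : F[X]) :
    aeval T p e = p.eval b • e := by
  induction p using Polynomial.induction_on' with
  | add p q hp hq => rw [map_add, LinearMap.add_apply, hp, hq, eval_add, add_smul]
  | monomial n a =>
    rw [aeval_monomial]
    have h1 : ∀ n : ℕ, (T ^ n) e = b ^ n • e := by
      intro n
      induction n with
      | zero => simp
      | succ n ih =>
        rw [pow_succ']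
        change T ((T ^ n) e) = _
        rw [ih, map_smul, h, smul_smul, pow_succ]
    change a • (T ^ n) e = _
    rw [h1, smul_smul, eval_monomial]

theorem aeval_mem {V : Type*} [AddCommGroup V] [Module F V] {T : V →ₗ[F] V} {K : Submodule F V} (hK : ∀ x ∈ K, T x ∈ K) {x : V} (hx : x ∈ K)
    (p : F[X]) : aeval T p x ∈ K := by
  induction p using Polynomial.induction_on' with
  | add p q hp hq => rw [map_add]; exact K.add_mem hp hq
  | monomial n a =>
    rw [aeval_monomial]
    have h1 : ∀ n : ℕ, (T ^ n) x ∈ K := by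
      intro n
      induction n with
      | zero => exact hx
      | succ n ih =>
        rw [pow_succ']
        exact hK _ ih
    exact K.smul_mem a (h1 n)

variable {b : F} (β : W →ₗ[F] F) {B : W →ₗ[F] W}

theorem tri_e (b : F) (B : W →ₗ[F] W) : tri b β B ((1 : F), (0 : W)) = b • ((1 : F), (0 : W)) := by
  rw [tri_apply]
  ext <;> simp

theorem tri_poly [FiniteDimensional F W] (b : F) (B : W →ₗ[F] W) (x : F × W) : (aeval (tri b β B) B.charpoly x).2 = 0 := by
  have h1 := aeval_inter (T := tri b β B) (B := B) (LinearMap.snd F F W) (fun x => rfl) B.charpoly x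
  rw [LinearMap.snd_apply] at h1
  rw [h1, B.aeval_self_charpoly]; rfl

theorem tri_cyc [FiniteDimensional F W] {u : W} (hu : Cyc B u) (hb : B.charpoly.eval b ≠ 0) :
    ∃ v, Cyc (tri b β B) v ∧ (tri b β B).charpoly = (X - C b) * B.charpoly := by
  set f' := B.charpoly with hf'
  set T := tri b β B with hT
  set e : F × W := (1, 0) with he
  have hTe : T e = b • e := tri_e β b B
  obtain ⟨c, hc⟩ : ∃ c, aeval T f' (0, u) = c • e := by
    refine ⟨(aeval T f' (0, u)).1, ?_⟩
    ext
    · simp [he]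
    · rw [tri_poly]; simp [he]
  obtain ⟨s, hs⟩ : ∃ s : F, c + s * f'.eval b ≠ 0 := by
    by_cases h : c = 0
    · exact ⟨1, by rw [h, zero_add, one_mul]; exact hb⟩
    · exact ⟨0, by rw [zero_mul, add_zero]; exact h⟩
  have hsu : ((s, u) : F × W) = s • e + (0, u) := by ext <;> simp [he]
  have hv : aeval T f' (s, u) = (c + s * f'.eval b) • e := by
    rw [hsu, map_add, map_smul, aeval_eig hTe, hc, smul_smul, ← add_smul, add_comm]
  have hcyc : Cyc T (s, u) := by
    intro K hv' hK
    have heK : e ∈ K := by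
      have h1 := aeval_mem hK hv' f'
      rw [hv] at h1
      have h2 := K.smul_mem (c + s * f'.eval b)⁻¹ h1
      rwa [smul_smul, inv_mul_cancel₀ hs, one_smul] at h2
    have hfst : ∀ p : F × W, p ∈ K ↔ ((0 : F), p.2) ∈ K := by
      intro p
      have h2 : p = p.1 • e + (0, p.2) := by ext <;> simp [he]
      constructor
      · intro hp
        have h3 := K.sub_mem hp (K.smul_mem p.1 heK)
        rwa [show p - p.1 • e = (0, p.2) from by ext <;> simp [he]] at h3
      · intro hp
        rw [h2]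
        exact K.add_mem (K.smul_mem _ heK) hp
    have h5 : K.comap (LinearMap.inr F F W) = ⊤ := by
      apply hu
      · exact (hfst _).1 hv'
      · intro x hx
        exact (hfst _).1 (hK _ hx)
    rw [eq_top_iff]
    rintro p -
    rw [hfst]
    have h6 : p.2 ∈ K.comap (LinearMap.inr F F W) := by rw [h5]; trivial
    exact h6
  refine ⟨(s, u), hcyc, ?_⟩
  apply hcyc.charpoly_eq
  · exact (monic_X_sub_C b).mul B.charpoly_monic
  · rw [natDegree_mul (monic_X_sub_C b).ne_zero B.charpoly_monic.ne_zero, natDegree_X_sub_C, B.charpoly_natDegree, finrank_prod, finrank_self]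
  · rw [map_mul, Module.End.mul_apply, hv, map_smul, map_sub, aeval_X, aeval_C, LinearMap.sub_apply, hTe]
    rw [Module.algebraMap_end_apply, sub_self, smul_zero]

theorem tri_centr [FiniteDimensional F W] (b : F) (B : W →ₗ[F] W) (hb : B.charpoly.eval b ≠ 0) {δ : F} (hδ : δ ≠ 0) :
    ∃ Z : (F × W) ≃ₗ[F] (F × W), (∀ x, Z (tri b β B x) = tri b β B (Z x)) ∧ LinearMap.det (Z : (F × W) →ₗ[F] (F × W)) = δ := by
  set f' := B.charpoly with hf'
  set T := tri b β B with hT
  set e : F × W := (1, 0) with he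
  have hTe : T e = b • e := tri_e β b B
  set c := (δ - 1) * (f'.eval b)⁻¹ with hc
  set Zl := LinearMap.transvection ((c • LinearMap.fst F F W) ∘ₗ aeval T f') e with hZl
  have hZ : ∀ x, Zl x = x + c • aeval T f' x := by
    intro x
    rw [hZl, LinearMap.transvection.apply]
    congr 1
    ext
    · simp [he]
    · rw [Prod.smul_snd, Prod.smul_snd, tri_poly]; simp [he]
  have hdet : LinearMap.det Zl = δ := by
    rw [hZl, LinearMap.transvection.det, LinearMap.comp_apply, aeval_eig hTe]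
    simp only [he, LinearMap.smul_apply, LinearMap.fst_apply, Prod.smul_fst, smul_eq_mul, mul_one]
    rw [hc]
    field_simp
    ring
  have hdet0 : LinearMap.det Zl ≠ 0 := by rw [hdet]; exact hδ
  refine ⟨LinearMap.equivOfDetNeZero Zl hdet0, ?_, ?_⟩
  · intro x
    change Zl (T x) = T (Zl x)
    rw [hZ, hZ, map_add, map_smul, aeval_comm]
  · exact hdet

theorem det_equiv_ne_zero {V : Type*} [AddCommGroup V] [Module F V] (P : V ≃ₗ[F] V) : LinearMap.det (P : V →ₗ[F] V) ≠ 0 := by
  rw [← LinearEquiv.coe_det]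
  exact Units.ne_zero _

/-- the block case -/
theorem comm_block [FiniteDimensional F W] [Finite F] (A : (F × W) ≃ₗ[F] (F × W)) (hdA : LinearMap.det (A : (F × W) →ₗ[F] (F × W)) = 1)
    (hy : (A (1, 0)).2 ≠ 0) (hA : (A.symm (1, 0)).1 ≠ 0) {b : F} {f' : F[X]} (hf' : f'.Monic) (hfd : f'.natDegree = finrank F W)
    (h1 : b * ((-1) ^ finrank F W * f'.coeff 0) = 1) (hfb : f'.eval b ≠ 0) :
    ∃ B P : (F × W) ≃ₗ[F] (F × W), LinearMap.det (B : (F × W) →ₗ[F] (F × W)) = 1 ∧ LinearMap.det (P : (F × W) →ₗ[F] (F × W)) = 1 ∧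
      A = B * P * B⁻¹ * P⁻¹ := by
  have hb : b ≠ 0 := by
    rintro rfl
    rw [zero_mul] at h1
    exact zero_ne_one h1
  have hf0 : f'.coeff 0 ≠ 0 := by
    intro h
    rw [h, mul_zero, mul_zero] at h1
    exact zero_ne_one h1
  obtain ⟨β, B, u, hB1, hB2, hB3, hB4⟩ := block A hy hA hb hf' hfd hf0 (g := (X - C b) * f') ((monic_X_sub_C b).mul hf')
    (by rw [natDegree_mul (monic_X_sub_C b).ne_zero hf'.ne_zero, natDegree_X_sub_C, hfd, finrank_prod, finrank_self]) (by
      rw [hdA, mul_one, finrank_prod, finrank_self, mul_coeff_zero, coeff_sub, coeff_X_zero, coeff_C_zero]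
      ring)
  set T := tri b β B ∘ₗ (A : (F × W) →ₗ[F] (F × W)) with hT
  have hBb : B.charpoly.eval b ≠ 0 := by rw [hB1]; exact hfb
  obtain ⟨v, hv1, hv2⟩ := tri_cyc β hB2 hBb
  obtain ⟨P0, hP0⟩ := hv1.exists_conj hB3 (by rw [hv2, hB4, hB1])
  obtain ⟨Z, hZ1, hZ2⟩ := tri_centr β b B hBb (δ := (LinearMap.det (P0 : (F × W) →ₗ[F] (F × W)))⁻¹) (inv_ne_zero (det_equiv_ne_zero P0))
  have hdB : LinearMap.det (tri b β B) = 1 := by
    rw [det_tri hb, LinearMap.det_eq_sign_charpoly_coeff, hB1]; exact h1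
  have hdB0 : LinearMap.det (tri b β B) ≠ 0 := by rw [hdB]; exact one_ne_zero
  let Be := LinearMap.equivOfDetNeZero (tri b β B) hdB0
  have hBe : ∀ x, Be x = tri b β B x := fun x => rfl
  set P : (F × W) ≃ₗ[F] (F × W) := P0 * Z with hP
  have hPx : ∀ x, P x = P0 (Z x) := fun x => rfl
  have hdP : LinearMap.det (P : (F × W) →ₗ[F] (F × W)) = 1 := by
    have h2 : (P : (F × W) →ₗ[F] (F × W)) = (P0 : (F × W) →ₗ[F] (F × W)) ∘ₗ (Z : (F × W) →ₗ[F] (F × W)) := rfl
    rw [h2, LinearMap.det_comp, hZ2, mul_inv_cancel₀ (det_equiv_ne_zero P0)]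
  have hcomm : Be * A * P = P * Be := by
    apply LinearEquiv.ext
    intro x
    change Be (A (P x)) = P (Be x)
    rw [hBe, hBe, hPx (tri b β B x), hZ1, hP0]
    rfl
  refine ⟨Be⁻¹, P, ?_, hdP, ?_⟩
  · have h2 : (LinearEquiv.det Be⁻¹ : F) = 1 := by
      rw [map_inv]
      have h3 : LinearEquiv.det Be = 1 := Units.ext (by rw [LinearEquiv.coe_det]; exact hdB)
      rw [h3, inv_one, Units.val_one]
    rw [LinearEquiv.coe_det] at h2
    exact h2
  · rw [inv_inv]
    have h2 : A = Be⁻¹ * (P * Be) * P⁻¹ := by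
      rw [← hcomm]; group
    rw [h2]; group

end blk

section final

variable {F : Type*} [Field F] {V : Type*} [AddCommGroup V] [Module F V]

/-- choice of a functional -/
theorem exists_lam {v x : V} (hv : v ≠ 0) (hx : x ≠ 0) : ∃ l : V →ₗ[F] F, l v = 1 ∧ l x ≠ 0 := by
  have hv' : v ∉ (⊥ : Submodule F V) := by rwa [Submodule.mem_bot]
  obtain ⟨l0, hl0, -⟩ := Submodule.exists_le_ker_of_notMem hv'
  set l1 := (l0 v)⁻¹ • l0 with hl1
  have h1 : l1 v = 1 := by rw [hl1, LinearMap.smul_apply, smul_eq_mul, inv_mul_cancel₀ hl0]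
  by_cases h : l1 x = 0
  · have hxv : x ∉ F ∙ v := by
      intro hx'
      obtain ⟨c, rfl⟩ := Submodule.mem_span_singleton.1 hx'
      rw [map_smul, h1, smul_eq_mul, mul_one] at h
      rw [h, zero_smul] at hx
      exact hx rfl
    obtain ⟨l2, hl2, hl2'⟩ := Submodule.exists_le_ker_of_notMem hxv
    have h3 : l2 v = 0 := hl2' (Submodule.mem_span_singleton_self v)
    refine ⟨l1 + l2, ?_, ?_⟩
    · rw [LinearMap.add_apply, h1, h3, add_zero]
    · rw [LinearMap.add_apply, h, zero_add]; exact hl2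
  · exact ⟨l1, h1, h⟩

/-- splitting off a line -/
def splitE (l : V →ₗ[F] F) (v : V) (hv : l v = 1) : V ≃ₗ[F] F × LinearMap.ker l where
  toFun x := (l x, ⟨x - l x • v, by rw [LinearMap.mem_ker, map_sub, map_smul, hv, smul_eq_mul, mul_one, sub_self]⟩)
  map_add' x y := by
    ext
    · simp
    · simp [add_smul]; abel
  map_smul' c x := by
    ext
    · simp
    · simp [smul_sub, smul_smul]
  invFun p := p.1 • v + p.2
  left_inv x := by simp
  right_inv p := by
    have h : l (p.2 : V) = 0 := p.2.2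
    ext
    · simp [hv, h]
    · simp [hv, h]

variable [FiniteDimensional F V] [Finite F]

/-- the polynomial -/
theorem exists_poly {N : ℕ} (h : 2 ≤ N ∨ (N = 1 ∧ 4 ≤ Nat.card F)) :
    ∃ (b : F) (f' : F[X]), f'.Monic ∧ f'.natDegree = N ∧ b * ((-1) ^ N * f'.coeff 0) = 1 ∧ f'.eval b ≠ 0 := by
  rcases h with h | ⟨rfl, h⟩
  · refine ⟨1, X ^ N + (C (-(-1) ^ N) * X + C ((-1) ^ N)), ?_, ?_, ?_, ?_⟩
    · exact monic_X_pow_add ((degree_linear_le).trans_lt (by exact_mod_cast h))
    · rw [natDegree_add_eq_left_of_natDegree_lt, natDegree_X_pow]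
      rw [natDegree_X_pow]
      exact natDegree_linear_le.trans_lt (by omega)
    · have h1 : ((X : F[X]) ^ N + (C (-(-1) ^ N) * X + C ((-1) ^ N))).coeff 0 = (-1) ^ N := by
        rw [coeff_zero_eq_eval_zero]
        simp [show N ≠ 0 by omega]
      rw [h1, one_mul, ← pow_add, ← two_mul, pow_mul, neg_one_sq, one_pow]
    · simp
  · obtain ⟨b, hb0, hb1, hb2⟩ : ∃ b : F, b ≠ 0 ∧ b ≠ 1 ∧ b ≠ -1 := by
      classical
      have : Fintype F := Fintype.ofFinite F
      by_contra hno
      push_neg at hno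
      have h1 : (Finset.univ : Finset F) ⊆ {0, 1, -1} := by
        intro b _
        by_cases h0 : b = 0
        · simp [h0]
        by_cases h1 : b = 1
        · simp [h1]
        · simp [hno b h0 h1]
      have h2 := Finset.card_le_card h1
      have h3 : ({0, 1, -1} : Finset F).card ≤ 3 := Finset.card_le_three
      rw [Finset.card_univ, ← Nat.card_eq_fintype_card] at h2
      omega
    refine ⟨b, X - C b⁻¹, monic_X_sub_C _, natDegree_X_sub_C _, ?_, ?_⟩
    · simp [hb0]
    · rw [eval_sub, eval_X, eval_C]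
      intro h1
      have h2 : b * b = 1 := by
        field_simp at h1
        linear_combination h1
      rcases mul_self_eq_one_iff.1 h2 with h3 | h3
      · exact hb1 h3
      · exact hb2 h3

/-- **non-scalar elements of the special linear group are commutators** -/
theorem comm_of_nonscalar (A : V ≃ₗ[F] V) (hdA : LinearMap.det (A : V →ₗ[F] V) = 1) {v : V} (hv : ∀ c : F, A v ≠ c • v)
    (h : 3 ≤ finrank F V ∨ 4 ≤ Nat.card F) :
    ∃ B P : V ≃ₗ[F] V, LinearMap.det (B : V →ₗ[F] V) = 1 ∧ LinearMap.det (P : V →ₗ[F] V) = 1 ∧ A = B * P * B⁻¹ * P⁻¹ := by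
  have hv0 : v ≠ 0 := by
    rintro rfl
    exact hv 0 (by rw [map_zero, smul_zero])
  have hx0 : A.symm v ≠ 0 := by
    intro h
    exact hv0 (A.symm.map_eq_zero_iff.1 h)
  obtain ⟨l, hl1, hl2⟩ := exists_lam (F := F) hv0 hx0
  set e := splitE l v hl1 with he
  have hev : e v = (1, 0) := by
    ext
    · exact hl1
    · change v - l v • v = 0
      rw [hl1, one_smul, sub_self]
  have hev' : e.symm (1, 0) = v := by rw [← hev, e.symm_apply_apply]
  set A' : (F × LinearMap.ker l) ≃ₗ[F] (F × LinearMap.ker l) := (e.symm.trans A).trans e with hA'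
  have hA'x : ∀ x, A' x = e (A (e.symm x)) := fun x => rfl
  have hfin : finrank F V = finrank F (LinearMap.ker l) + 1 := by
    rw [e.finrank_eq, finrank_prod, finrank_self, add_comm]
  have hker : 1 ≤ finrank F (LinearMap.ker l) := by
    by_contra h0
    have h1 : finrank F V = 1 := by omega
    obtain ⟨c, hc⟩ := (finrank_eq_one_iff_of_nonzero' v hv0).1 h1 (A v)
    exact hv c hc.symm
  obtain ⟨b, f', hf1, hf2, hf3, hf4⟩ := exists_poly (F := F) (N := finrank F (LinearMap.ker l)) (by omega)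
  have hd : LinearMap.det (A' : (F × LinearMap.ker l) →ₗ[F] (F × LinearMap.ker l)) = 1 := by
    have h1 : (A' : (F × LinearMap.ker l) →ₗ[F] (F × LinearMap.ker l)) = (e : V →ₗ[F] _) ∘ₗ (A : V →ₗ[F] V) ∘ₗ (e.symm : _ →ₗ[F] V) := rfl
    rw [h1, LinearMap.det_conj, hdA]
  obtain ⟨B, P, hB, hP, hBP⟩ := comm_block A' hd (by
    rw [hA'x, hev']
    intro h0
    have h1 : A v - l (A v) • v = 0 := congrArg Subtype.val h0
    exact hv _ (sub_eq_zero.1 h1)) (by
    have h1 : A'.symm (1, 0) = e (A.symm (e.symm (1, 0))) := rfl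
    rw [h1, hev']
    exact hl2) hf1 hf2 hf3 hf4
  refine ⟨(e.trans B).trans e.symm, (e.trans P).trans e.symm, ?_, ?_, ?_⟩
  · have h1 : (((e.trans B).trans e.symm : V ≃ₗ[F] V) : V →ₗ[F] V) = (e.symm : (F × LinearMap.ker l) →ₗ[F] V) ∘ₗ (B : (F × LinearMap.ker l) →ₗ[F] (F × LinearMap.ker l)) ∘ₗ ((e.symm).symm : V →ₗ[F] (F × LinearMap.ker l)) := rfl
    rw [h1, LinearMap.det_conj, hB]
  · have h1 : (((e.trans P).trans e.symm : V ≃ₗ[F] V) : V →ₗ[F] V) = (e.symm : (F × LinearMap.ker l) →ₗ[F] V) ∘ₗ (P : (F × LinearMap.ker l) →ₗ[F] (F × LinearMap.ker l)) ∘ₗ ((e.symm).symm : V →ₗ[F] (F × LinearMap.ker l)) := rfl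
    rw [h1, LinearMap.det_conj, hP]
  · apply LinearEquiv.ext
    intro x
    have h1 : A x = e.symm (A' (e x)) := by rw [hA'x, e.symm_apply_apply, e.symm_apply_apply]
    rw [h1, hBP]
    change e.symm (B (P (B.symm (P.symm (e x))))) = e.symm (B (e (e.symm (P (e (e.symm (B.symm (e (e.symm (P.symm (e x)))))))))))
    simp only [e.apply_symm_apply]

end final

end Cfsg.Agent.Ore44
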