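import Mathlib.LinearAlgebra.Charpoly.Basic
import Mathlib.LinearAlgebra.Charpoly.ToMatrix
import Mathlib.LinearAlgebra.Dual.Lemmas
import Mathlib.LinearAlgebra.FiniteDimensional.Basic
import Mathlib.FieldTheory.Finite.Basic
import Mathlib.Algebra.Polynomial.Div
import Mathlib.RingTheory.Polynomial.DegreeLT
import Mathlib.LinearAlgebra.Dimension.OrzechProperty

/-!
Cyclic vectors and pole placement.
-/

set_option autoImplicit false

namespace Cfsg.Agent.Ore44

open Polynomial Module

section basic

variable {F : Type*} [Field F] {V : Type*} [AddCommGroup V] [Module F V]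

/-- `v` is a cyclic vector for `T` -/
def Cyc (T : V →ₗ[F] V) (v : V) : Prop := ∀ K : Submodule F V, v ∈ K → (∀ x ∈ K, T x ∈ K) → K = ⊤

/-- rank one feedback -/
theorem Cyc.add {T : V →ₗ[F] V} {v : V} (h : Cyc T v) (φ : V →ₗ[F] F) : Cyc (T + φ.smulRight v) v := by
  intro K hv hK
  apply h K hv
  intro x hx
  have h1 := hK x hx
  rw [LinearMap.add_apply, LinearMap.smulRight_apply] at h1
  have h2 := K.sub_mem h1 (K.smul_mem (φ x) hv)
  rwa [add_sub_cancel_right] at h2

theorem Cyc.conj {W : Type*} [AddCommGroup W] [Module F W] {T : V →ₗ[F] V} {v : V} (h : Cyc T v) (P : V ≃ₗ[F] W) {S : W →ₗ[F] W}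
    (hS : ∀ x, S (P x) = P (T x)) : Cyc S (P v) := by
  intro K hv hK
  have h1 := h (K.comap (P : V →ₗ[F] W)) hv (fun x hx => by
    rw [Submodule.mem_comap] at hx ⊢
    have h2 := hK _ hx
    rwa [LinearEquiv.coe_coe, hS] at h2)
  rw [eq_top_iff]
  rintro w -
  have h2 : P.symm w ∈ K.comap (P : V →ₗ[F] W) := by rw [h1]; trivial
  rw [Submodule.mem_comap, LinearEquiv.coe_coe, P.apply_symm_apply] at h2
  exact h2

theorem aeval_comm (T : V →ₗ[F] V) (p : F[X]) (x : V) : T (aeval T p x) = aeval T p (T x) := by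
  have h : aeval T (X : F[X]) * aeval T p = aeval T p * aeval T (X : F[X]) := by
    rw [← map_mul, mul_comm, map_mul]
  rw [aeval_X] at h
  exact LinearMap.congr_fun h x

/-- the evaluation map -/
noncomputable def kry (T : V →ₗ[F] V) (v : V) : F[X] →ₗ[F] V where
  toFun p := aeval T p v
  map_add' p q := by rw [map_add]; rfl
  map_smul' c p := by rw [map_smul]; rfl

theorem kry_apply (T : V →ₗ[F] V) (v : V) (p : F[X]) : kry T v p = aeval T p v := rfl

theorem kry_X_mul (T : V →ₗ[F] V) (v : V) (p : F[X]) : kry T v (X * p) = T (kry T v p) := by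
  rw [kry_apply, map_mul, aeval_X]; rfl

theorem Cyc.surj {T : V →ₗ[F] V} {v : V} (h : Cyc T v) : Function.Surjective (kry T v) := by
  rw [← LinearMap.range_eq_top]
  apply h
  · exact ⟨1, by rw [kry_apply, map_one]; rfl⟩
  · rintro _ ⟨p, rfl⟩
    exact ⟨X * p, kry_X_mul T v p⟩

theorem Cyc.eq_zero {T : V →ₗ[F] V} {v : V} (h : Cyc T v) {p : F[X]} (hp : aeval T p v = 0) : aeval T p = 0 := by
  apply LinearMap.ext
  intro w
  obtain ⟨q, rfl⟩ := h.surj w
  have h1 : aeval T p * aeval T q = aeval T q * aeval T p := by rw [← map_mul, mul_comm, map_mul]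
  have h2 := LinearMap.congr_fun h1 v
  rw [Module.End.mul_apply, Module.End.mul_apply, hp, map_zero] at h2
  exact h2

theorem Cyc.degree_le {T : V →ₗ[F] V} {v : V} (h : Cyc T v) {p : F[X]} (hp : p.Monic) (hpv : aeval T p v = 0) :
    finrank F V ≤ p.natDegree := by
  have h1 : Function.Surjective ((kry T v).comp (degreeLT F p.natDegree).subtype) := by
    intro w
    obtain ⟨q, rfl⟩ := h.surj w
    refine ⟨⟨q %ₘ p, ?_⟩, ?_⟩
    · rw [mem_degreeLT]
      exact (degree_modByMonic_lt q hp).trans_le degree_le_natDegree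
    · change aeval T (q %ₘ p) v = aeval T q v
      conv_rhs => rw [← modByMonic_add_div q p]
      rw [map_add, map_mul, LinearMap.add_apply, Module.End.mul_apply]
      have h2 : aeval T p = 0 := h.eq_zero hpv
      rw [h2, LinearMap.zero_apply, add_zero]
  have h2 := LinearMap.finrank_le_finrank_of_surjective h1
  rwa [LinearEquiv.finrank_eq (degreeLTEquiv F p.natDegree), finrank_fintype_fun_eq_card, Fintype.card_fin] at h2

variable [FiniteDimensional F V]

theorem Cyc.charpoly_eq {T : V →ₗ[F] V} {v : V} (h : Cyc T v) {g : F[X]} (hg : g.Monic) (hd : g.natDegree = finrank F V)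
    (hgv : aeval T g v = 0) : T.charpoly = g := by
  have h1 : g = minpoly F T := by
    have h2 : minpoly F T ∣ g := minpoly.dvd _ _ (h.eq_zero hgv)
    have hm := minpoly.monic (Algebra.IsIntegral.isIntegral (R := F) T)
    have h3 : finrank F V ≤ (minpoly F T).natDegree := h.degree_le hm (by rw [minpoly.aeval]; rfl)
    exact eq_of_monic_of_dvd_of_natDegree_le hm hg h2 (by omega)
  have h2 : minpoly F T ∣ T.charpoly := minpoly.dvd _ _ T.aeval_self_charpoly
  rw [← h1] at h2
  exact eq_of_monic_of_dvd_of_natDegree_le hg T.charpoly_monic h2 (by rw [T.charpoly_natDegree, hd])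

theorem Cyc.ker {T : V →ₗ[F] V} {v : V} (h : Cyc T v) (p : F[X]) : kry T v p = 0 ↔ T.charpoly ∣ p := by
  constructor
  · intro hp
    have h1 : minpoly F T ∣ p := minpoly.dvd _ _ (h.eq_zero hp)
    have hm := minpoly.monic (Algebra.IsIntegral.isIntegral (R := F) T)
    have h3 : finrank F V ≤ (minpoly F T).natDegree := h.degree_le hm (by rw [minpoly.aeval]; rfl)
    have h2 : minpoly F T ∣ T.charpoly := minpoly.dvd _ _ T.aeval_self_charpoly
    have h4 := eq_of_monic_of_dvd_of_natDegree_le hm T.charpoly_monic h2 (by rw [T.charpoly_natDegree]; exact h3)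
    rwa [← h4] at h1
  · rintro ⟨q, rfl⟩
    rw [kry_apply, map_mul, T.aeval_self_charpoly, zero_mul]
    rfl

/-- cyclic operators with the same characteristic polynomial are similar -/
theorem Cyc.exists_conj {T T' : V →ₗ[F] V} {v v' : V} (h : Cyc T v) (h' : Cyc T' v') (hc : T.charpoly = T'.charpoly) :
    ∃ P : V ≃ₗ[F] V, ∀ x, P (T x) = T' (P x) := by
  have hker : LinearMap.ker (kry T v) = LinearMap.ker (kry T' v') := by
    ext p
    rw [LinearMap.mem_ker, LinearMap.mem_ker, h.ker, h'.ker, hc]
  let e1 := (kry T v).quotKerEquivOfSurjective h.surj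
  let e2 := (kry T' v').quotKerEquivOfSurjective h'.surj
  let P : V ≃ₗ[F] V := (e1.symm.trans (Submodule.quotEquivOfEq _ _ hker)).trans e2
  have hP : ∀ p, P (kry T v p) = kry T' v' p := by
    intro p
    have h1 : e1.symm (kry T v p) = Submodule.Quotient.mk p := by
      rw [LinearEquiv.symm_apply_eq]
      rfl
    change e2 (Submodule.quotEquivOfEq _ _ hker (e1.symm (kry T v p))) = _
    rw [h1, Submodule.quotEquivOfEq_mk]
    rfl
  refine ⟨P, fun x => ?_⟩
  obtain ⟨p, rfl⟩ := h.surj x
  rw [← kry_X_mul, hP, hP, kry_X_mul]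

/-- **pole placement** -/
theorem Cyc.place {T : V →ₗ[F] V} {v : V} (h : Cyc T v) {g : F[X]} (hg : g.Monic) (hd : g.natDegree = finrank F V) :
    ∃ φ : V →ₗ[F] F, (T + φ.smulRight v).charpoly = g := by
  set n := finrank F V with hn
  set t := T.charpoly with ht
  have htm : t.Monic := T.charpoly_monic
  have htd : t.natDegree = n := T.charpoly_natDegree
  -- Horner polynomials
  have hor : ∀ (p : F[X]) (k : ℕ), divX^[k] p = X * divX^[k + 1] p + C (p.coeff k) := by
    intro p k
    rw [Function.iterate_succ_apply']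
    have h1 : (divX^[k] p).coeff 0 = p.coeff k := by
      have h2 : ∀ (k j : ℕ) (p : F[X]), (divX^[k] p).coeff j = p.coeff (j + k) := by
        intro k
        induction k with
        | zero => intro j p; rfl
        | succ k ih =>
          intro j p
          rw [Function.iterate_succ_apply', coeff_divX, ih]
          congr 1; omega
      rw [h2, zero_add]
    rw [← h1, X_mul_divX_add]
  have hor1 : ∀ p : F[X], p.Monic → p.natDegree = n → divX^[n] p = 1 := by
    intro p hp hpd
    have h2 : ∀ (k j : ℕ) (p : F[X]), (divX^[k] p).coeff j = p.coeff (j + k) := by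
      intro k
      induction k with
      | zero => intro j p; rfl
      | succ k ih =>
        intro j p
        rw [Function.iterate_succ_apply', coeff_divX, ih]
        congr 1; omega
    ext j
    rw [h2, coeff_one]
    rcases Nat.eq_zero_or_pos j with hj | hj
    · subst hj
      rw [zero_add, if_pos rfl, ← hpd]
      exact hp
    · rw [if_neg hj.ne', coeff_eq_zero_of_natDegree_lt (by omega)]
  set w : ℕ → V := fun k => aeval T (divX^[k] t) v with hw
  have hwn : w n = v := by rw [hw]; simp only [hor1 t htm htd, map_one]; rfl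
  have hw0 : w 0 = 0 := by
    rw [hw]
    simp only [Function.iterate_zero, id_eq]
    rw [T.aeval_self_charpoly]; rfl
  have hws : ∀ k, w k = T (w (k + 1)) + t.coeff k • v := by
    intro k
    have h1 : w k = aeval T (X * divX^[k + 1] t + C (t.coeff k)) v := by rw [← hor]
    rw [h1, map_add, map_mul, aeval_X, aeval_C]
    rfl
  -- spanning
  obtain ⟨Sp, hSp⟩ : ∃ Sp : Submodule F V, Sp = Submodule.span F (Set.range fun i : Fin n => w (i + 1)) := ⟨_, rfl⟩
  have hmem : ∀ k, k < n → w (k + 1) ∈ Sp := fun k hk => by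
    rw [hSp]
    exact Submodule.subset_span ⟨⟨k, hk⟩, rfl⟩
  have hvm : v ∈ Sp := by
    rcases Nat.eq_zero_or_pos n with h0 | h0
    · have : Subsingleton V := finrank_zero_iff.1 h0
      rw [Subsingleton.elim v 0]
      exact zero_mem _
    · have := hmem (n - 1) (by omega)
      rwa [Nat.sub_add_cancel h0, hwn] at this
  have hspan : ⊤ ≤ Submodule.span F (Set.range fun i : Fin n => w (i + 1)) := by
    rw [← hSp, h Sp hvm]
    have h1 : Sp ≤ Sp.comap T := by
      conv_lhs => rw [hSp]
      rw [Submodule.span_le]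
      rintro _ ⟨i, rfl⟩
      change T (w (i + 1)) ∈ Sp
      have h2 : T (w (i + 1)) = w i - t.coeff i • v := by rw [hws i, add_sub_cancel_right]
      rw [h2]
      refine Submodule.sub_mem _ ?_ (Submodule.smul_mem _ _ hvm)
      rcases Nat.eq_zero_or_pos (i : ℕ) with h3 | h3
      · rw [h3, hw0]; exact zero_mem _
      · have := hmem (i - 1) (by omega)
        rwa [Nat.sub_add_cancel h3] at this
    intro x hx
    exact h1 hx
  let b : Basis (Fin n) F V := basisOfTopLeSpanOfCardEqFinrank (fun i : Fin n => w (i + 1)) hspan (by rw [Fintype.card_fin])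
  have hb : ∀ i : Fin n, b i = w (i + 1) := fun i => by
    rw [coe_basisOfTopLeSpanOfCardEqFinrank]
  let φ : V →ₗ[F] F := b.constr F fun i => t.coeff i - g.coeff i
  have hφ : ∀ k, k < n → φ (w (k + 1)) = t.coeff k - g.coeff k := by
    intro k hk
    have h1 := b.constr_basis F (fun i : Fin n => t.coeff i - g.coeff i) ⟨k, hk⟩
    rwa [hb] at h1
  refine ⟨φ, ?_⟩
  set S := T + φ.smulRight v with hS
  have key : ∀ j, j ≤ n → aeval S (divX^[n - j] g) v = w (n - j) := by
    intro j
    induction j with
    | zero =>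
      intro _
      rw [Nat.sub_zero, hor1 g hg hd, hwn, map_one]; rfl
    | succ j ih =>
      intro hj
      have h1 := ih (by omega)
      have h2 : n - j = n - (j + 1) + 1 := by omega
      rw [hor, map_add, map_mul, aeval_X, aeval_C, LinearMap.add_apply, Module.End.mul_apply, ← h2, h1, hS,
        LinearMap.add_apply, LinearMap.smulRight_apply, h2, hφ _ (by omega), hws (n - (j + 1))]
      rw [Module.algebraMap_end_apply, sub_smul]
      abel
  have h0 := key n le_rfl
  rw [Nat.sub_self, hw0] at h0
  exact (h.add φ).charpoly_eq hg hd h0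

end basic

end Cfsg.Agent.Ore44
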