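import Mathlib.LinearAlgebra.Matrix.Block
import Mathlib.LinearAlgebra.Matrix.Determinant.Basic
import Mathlib.LinearAlgebra.Matrix.NonsingularInverse
import Mathlib.LinearAlgebra.Matrix.Reindex
import Mathlib.LinearAlgebra.Matrix.Notation
import Mathlib.Logic.Equiv.Fin.Rotate
import Mathlib.FieldTheory.Finite.Basic
import Mathlib.Algebra.BigOperators.Intervals
import Mathlib.GroupTheory.OrderOfElement

/-!
Scalar matrices of determinant one as commutators.
-/

set_option autoImplicit false

namespace Cfsg.Agent.Ore44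

open Matrix

section scal

variable {F : Type*} [Field F]

/-- `lam` is a commutator in the special linear group -/
def SC (ι : Type*) [Fintype ι] [DecidableEq ι] (lam : F) : Prop :=
  ∃ a b : Matrix ι ι F, a.det = 1 ∧ b.det = 1 ∧ b * a = lam • (a * b)

theorem SC.congr {ι κ : Type*} [Fintype ι] [DecidableEq ι] [Fintype κ] [DecidableEq κ] {lam : F} (e : ι ≃ κ) (h : SC ι lam) : SC κ lam := by
  obtain ⟨a, b, ha, hb, hab⟩ := h
  refine ⟨a.submatrix e.symm e.symm, b.submatrix e.symm e.symm, ?_, ?_, ?_⟩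
  · rw [Matrix.det_submatrix_equiv_self, ha]
  · rw [Matrix.det_submatrix_equiv_self, hb]
  · rw [Matrix.submatrix_mul_equiv, Matrix.submatrix_mul_equiv, hab]
    rfl

theorem SC.prod {ι κ : Type*} [Fintype ι] [DecidableEq ι] [Fintype κ] [DecidableEq κ] {lam : F} (h : SC ι lam) : SC (ι × κ) lam := by
  obtain ⟨a, b, ha, hb, hab⟩ := h
  refine ⟨Matrix.blockDiagonal fun _ : κ => a, Matrix.blockDiagonal fun _ : κ => b, ?_, ?_, ?_⟩
  · rw [Matrix.det_blockDiagonal]; simp [ha]
  · rw [Matrix.det_blockDiagonal]; simp [hb]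
  · rw [← Matrix.blockDiagonal_mul, ← Matrix.blockDiagonal_mul, ← Matrix.blockDiagonal_smul]
    congr 1
    funext k
    exact hab

/-- the cyclic construction -/
theorem core {m : Type*} [Fintype m] [DecidableEq m] {e : ℕ} {lam : F} (N : Matrix m m F)
    (ha : ∏ i : Fin (e + 1), (lam ^ (i : ℕ) • N).det = 1)
    (hS : ∀ s : F, s ≠ 0 → ∃ S : Matrix m m F, S.det = s ∧ S * N = lam ^ (e + 1) • (N * S)) : SC (m × Fin (e + 1)) lam := by
  set σ := finRotate (e + 1) with hσ
  set τ : Equiv.Perm (m × Fin (e + 1)) := (Equiv.refl m).prodCongr σ with hτ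
  have hτx : ∀ p, τ p = (p.1, σ p.2) := fun p => rfl
  obtain ⟨S, hSd, hSN⟩ := hS (((Equiv.Perm.sign τ : ℤˣ) : ℤ) : F) (by
    rcases Int.units_eq_one_or (Equiv.Perm.sign τ) with h | h <;> rw [h] <;> simp)
  set D : Fin (e + 1) → Matrix m m F := fun i => if i = 0 then S else 1 with hD
  refine ⟨Matrix.blockDiagonal fun i : Fin (e + 1) => lam ^ (i : ℕ) • N, (Matrix.blockDiagonal D).submatrix τ id, ?_, ?_, ?_⟩
  · rw [Matrix.det_blockDiagonal, ha]
  · rw [Matrix.det_permute, Matrix.det_blockDiagonal]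
    have h1 : ∏ k, (D k).det = (((Equiv.Perm.sign τ : ℤˣ) : ℤ) : F) := by
      rw [Fin.prod_univ_succ]
      have h2 : ∀ i : Fin e, (D i.succ).det = 1 := fun i => by
        rw [hD]; simp
      simp only [h2, Finset.prod_const_one, mul_one]
      rw [hD]; simp only [if_true]
      exact hSd
    rw [h1]
    rcases Int.units_eq_one_or (Equiv.Perm.sign τ) with h | h <;> rw [h] <;> simp
  · have hdiag : ∀ (M M' : Fin (e + 1) → Matrix m m F) (p q : m × Fin (e + 1)),
        (Matrix.blockDiagonal M * Matrix.blockDiagonal M') p q = if p.2 = q.2 then (M p.2 * M' p.2) p.1 q.1 else 0 := by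
      intro M M' p q
      rw [← Matrix.blockDiagonal_mul, Matrix.blockDiagonal_apply]
    ext p q
    have h1 : ((Matrix.blockDiagonal D).submatrix τ id * Matrix.blockDiagonal fun i : Fin (e + 1) => lam ^ (i : ℕ) • N) p q =
        if σ p.2 = q.2 then (D (σ p.2) * (lam ^ ((σ p.2 : Fin (e + 1)) : ℕ) • N)) p.1 q.1 else 0 := by
      rw [show ((Matrix.blockDiagonal D).submatrix τ id * Matrix.blockDiagonal fun i : Fin (e + 1) => lam ^ (i : ℕ) • N) p q =
        (Matrix.blockDiagonal D * Matrix.blockDiagonal fun i : Fin (e + 1) => lam ^ (i : ℕ) • N) (τ p) q from rfl, hdiag, hτx]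
    have h2 : ((Matrix.blockDiagonal fun i : Fin (e + 1) => lam ^ (i : ℕ) • N) * (Matrix.blockDiagonal D).submatrix τ id) p q =
        if σ p.2 = q.2 then ((lam ^ (p.2 : ℕ) • N) * D (σ p.2)) p.1 q.1 else 0 := by
      rw [Matrix.mul_apply, Fintype.sum_prod_type]
      have h3 : ∀ (u : m) (k : Fin (e + 1)), (Matrix.blockDiagonal fun i : Fin (e + 1) => lam ^ (i : ℕ) • N) p (u, k) *
          ((Matrix.blockDiagonal D).submatrix τ id) (u, k) q =
          if p.2 = k then (lam ^ (p.2 : ℕ) • N) p.1 u * (if σ p.2 = q.2 then D (σ p.2) u q.1 else 0) else 0 := by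
        intro u k
        rw [Matrix.blockDiagonal_apply, Matrix.submatrix_apply, Matrix.blockDiagonal_apply, hτx]
        by_cases hk : p.2 = k
        · subst hk
          simp
        · simp [hk]
      simp only [h3, Finset.sum_ite_eq, Finset.mem_univ, if_true]
      by_cases hq : σ p.2 = q.2
      · simp only [hq, if_true, Matrix.mul_apply]
      · simp [hq]
    rw [Matrix.smul_apply, h1, h2]
    by_cases hq : σ p.2 = q.2
    · rw [if_pos hq, if_pos hq]
      have key : D (σ p.2) * (lam ^ ((σ p.2 : Fin (e + 1)) : ℕ) • N) = lam • ((lam ^ (p.2 : ℕ) • N) * D (σ p.2)) := by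
        by_cases hl : p.2 = Fin.last e
        · rw [hl, hσ, finRotate_last, hD]
          simp only [if_true, Fin.val_zero, pow_zero, one_smul, Fin.val_last]
          rw [hSN, Matrix.smul_mul, smul_smul, pow_succ']
        · have h4 : ((σ p.2 : Fin (e + 1)) : ℕ) = p.2 + 1 := by
            rw [hσ, coe_finRotate_of_ne_last hl]
          have h5 : σ p.2 ≠ 0 := by
            intro h
            rw [h, Fin.val_zero] at h4
            omega
          rw [hD]
          simp only [h5, if_false]
          rw [one_mul, mul_one, h4, smul_smul, pow_succ']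
      rw [key, Matrix.smul_apply]
    · rw [if_neg hq, if_neg hq, smul_zero]

theorem sc_odd {lam : F} {k : ℕ} (h : lam ^ (2 * k + 1) = 1) : SC (Fin 1 × Fin (2 * k + 1)) lam := by
  apply core (1 : Matrix (Fin 1) (Fin 1) F)
  · simp only [Matrix.det_smul, Fintype.card_fin, pow_one, Matrix.det_one, mul_one]
    rw [Fin.prod_univ_eq_prod_range (fun i => lam ^ i) (2 * k + 1), Finset.prod_pow_eq_pow_sum]
    have h1 := Finset.sum_range_id_mul_two (2 * k + 1)
    have h2 : ∑ i ∈ Finset.range (2 * k + 1), i = (2 * k + 1) * k := by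
      rw [Nat.add_sub_cancel] at h1
      have : (∑ i ∈ Finset.range (2 * k + 1), i) * 2 = ((2 * k + 1) * k) * 2 := by rw [h1]; ring
      omega
    rw [h2, pow_mul, h, one_pow]
  · intro s _
    refine ⟨s • 1, ?_, ?_⟩
    · simp
    · rw [h]; simp

theorem sc_even [Finite F] {lam : F} {e : ℕ} (h : lam ^ (e + 1) = -1) (h2 : (2 : F) ≠ 0) : SC (Fin 2 × Fin (e + 1)) lam := by
  have hl0 : lam ≠ 0 := by
    rintro rfl
    rw [zero_pow (Nat.succ_ne_zero e)] at h
    exact one_ne_zero (neg_eq_zero.1 h.symm)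
  apply core !![0, lam; 1, 0]
  · simp only [Matrix.det_smul, Fintype.card_fin, Matrix.det_fin_two_of, Finset.prod_mul_distrib, Finset.prod_const, Finset.card_univ]
    rw [Fin.prod_univ_eq_prod_range (fun i => (lam ^ i) ^ 2) (e + 1)]
    simp only [← pow_mul]
    rw [Finset.prod_pow_eq_pow_sum, ← Finset.sum_mul, Finset.sum_range_id_mul_two, Nat.add_sub_cancel, pow_mul, h]
    have h3 : (0 * 0 - lam * 1 : F) = (-1) * lam := by ring
    rw [h3, mul_pow, h, pow_succ]
    have h4 : ((-1 : F) ^ e) * (-1) ^ e = 1 := by rw [← mul_pow]; simp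
    linear_combination h4
  · intro s hs
    classical
    have : Fintype F := Fintype.ofFinite F
    have hcard : Fintype.card F % 2 = 1 := by
      apply FiniteField.odd_card_of_char_ne_two
      intro hc
      apply h2
      have : CharP F 2 := by rw [← hc]; exact ringChar.charP F
      exact CharTwo.two_eq_zero
    obtain ⟨α, β, hαβ⟩ := FiniteField.exists_root_sum_quadratic (R := F) (f := Polynomial.C 1 * Polynomial.X ^ 2 + Polynomial.C 0 * Polynomial.X + Polynomial.C s)
      (g := Polynomial.C (-lam) * Polynomial.X ^ 2 + Polynomial.C 0 * Polynomial.X + Polynomial.C 0)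
      (Polynomial.degree_quadratic one_ne_zero) (Polynomial.degree_quadratic (neg_ne_zero.2 hl0)) hcard
    simp only [Polynomial.eval_add, Polynomial.eval_mul, Polynomial.eval_C, Polynomial.eval_pow, Polynomial.eval_X] at hαβ
    refine ⟨!![α, -lam * β; β, -α], ?_, ?_⟩
    · rw [Matrix.det_fin_two_of]
      linear_combination -hαβ
    · rw [h]
      ext i j
      fin_cases i <;> fin_cases j <;> simp <;> ring

/-- scalars -/
theorem sc_all [Finite F] {lam : F} {n : ℕ} (hn : 0 < n) (h : lam ^ n = 1) : SC (Fin n) lam := by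
  have hd : orderOf lam ∣ n := orderOf_dvd_of_pow_eq_one h
  obtain ⟨k, hk⟩ := hd
  have hd0 : 0 < orderOf lam := Nat.pos_of_mul_pos_left (hk ▸ hn) |> fun _ => by
    rcases Nat.eq_zero_or_pos (orderOf lam) with h0 | h0
    · rw [h0, zero_mul] at hk; omega
    · exact h0
  have key : ∃ (ι : Type) (_ : Fintype ι) (_ : DecidableEq ι), Fintype.card ι = orderOf lam ∧ SC ι lam := by
    rcases Nat.even_or_odd' (orderOf lam) with ⟨e, he | he⟩
    · obtain ⟨e', rfl⟩ : ∃ e', e = e' + 1 := ⟨e - 1, by omega⟩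
      have h1 : (lam ^ (e' + 1)) * lam ^ (e' + 1) = 1 := by
        rw [← pow_add, ← two_mul, ← he, pow_orderOf_eq_one]
      have h2 : lam ^ (e' + 1) ≠ 1 := by
        intro h3
        have := orderOf_dvd_of_pow_eq_one h3
        have := Nat.le_of_dvd (by omega) this
        omega
      have h3 : lam ^ (e' + 1) = -1 := (mul_self_eq_one_iff.1 h1).resolve_left h2
      refine ⟨Fin 2 × Fin (e' + 1), inferInstance, inferInstance, ?_, sc_even h3 ?_⟩
      · rw [Fintype.card_prod, Fintype.card_fin, Fintype.card_fin, he]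
      · intro h4
        apply h2
        rw [h3]
        linear_combination -h4
    · refine ⟨Fin 1 × Fin (2 * e + 1), inferInstance, inferInstance, ?_, sc_odd ?_⟩
      · rw [Fintype.card_prod, Fintype.card_fin, Fintype.card_fin, he, one_mul]
      · rw [← he, pow_orderOf_eq_one]
  obtain ⟨ι, _, _, hι, hsc⟩ := key
  have h1 : SC (ι × Fin k) lam := hsc.prod
  have h2 : Fintype.card (ι × Fin k) = Fintype.card (Fin n) := by
    rw [Fintype.card_prod, hι, Fintype.card_fin, Fintype.card_fin, hk]
  exact h1.congr (Fintype.equivOfCardEq h2)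

end scal

end Cfsg.Agent.Ore44
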