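import Cfsg.Agent.Ore44.Com
import Cfsg.Agent.Ore44.Scal
import Mathlib.LinearAlgebra.Matrix.SpecialLinearGroup
import Mathlib.LinearAlgebra.Matrix.ToLin
import Mathlib.LinearAlgebra.Center

/-!
Every element of a special linear group over a finite field is a commutator.
-/

set_option autoImplicit false

namespace Cfsg.Agent.Ore44

open Matrix Module

theorem commutator_sl {F : Type*} [Field F] [Fintype F] (n : ℕ) (hn : 2 ≤ n) (hex : n = 2 → 4 ≤ Fintype.card F)
    (g : Matrix.SpecialLinearGroup (Fin n) F) : ∃ a b : Matrix.SpecialLinearGroup (Fin n) F, g = a * b * a⁻¹ * b⁻¹ := by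
  classical
  by_cases hsc : ∃ c : F, (g : Matrix (Fin n) (Fin n) F) = c • 1
  · obtain ⟨c, hc⟩ := hsc
    have h1 : c ^ n = 1 := by
      have h2 := g.2
      rw [hc, Matrix.det_smul, Matrix.det_one, mul_one, Fintype.card_fin] at h2
      exact h2
    obtain ⟨a, b, ha, hb, hab⟩ := sc_all (by omega) h1
    obtain ⟨a', ha'⟩ : ∃ a' : Matrix.SpecialLinearGroup (Fin n) F, (a' : Matrix (Fin n) (Fin n) F) = a := ⟨⟨a, ha⟩, rfl⟩
    obtain ⟨b', hb'⟩ : ∃ b' : Matrix.SpecialLinearGroup (Fin n) F, (b' : Matrix (Fin n) (Fin n) F) = b := ⟨⟨b, hb⟩, rfl⟩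
    refine ⟨b', a', ?_⟩
    rw [eq_mul_inv_iff_mul_eq, eq_mul_inv_iff_mul_eq]
    apply Subtype.ext
    rw [Matrix.SpecialLinearGroup.coe_mul, Matrix.SpecialLinearGroup.coe_mul, Matrix.SpecialLinearGroup.coe_mul, hc, ha', hb',
      hab, Matrix.smul_mul, Matrix.smul_mul, one_mul]
  · set gl : (Fin n → F) →ₗ[F] (Fin n → F) := Matrix.toLin' (g : Matrix (Fin n) (Fin n) F) with hgl
    have hdet : LinearMap.det gl = 1 := by rw [hgl, LinearMap.det_toLin', g.2]
    have hdet0 : LinearMap.det gl ≠ 0 := by rw [hdet]; exact one_ne_zero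
    have hv : ∃ v, ∀ c : F, gl v ≠ c • v := by
      by_contra hno
      push_neg at hno
      obtain ⟨a, ha⟩ := LinearMap.exists_eq_smul_id_of_forall_notLinearIndependent (f := gl) (by
        intro v hli
        obtain ⟨c, hc⟩ := hno v
        rw [LinearIndependent.pair_iff] at hli
        have h1 := hli c (-1) (by rw [hc]; simp)
        exact absurd h1.2 (by simp))
      apply hsc
      refine ⟨a, ?_⟩
      have h1 : LinearMap.toMatrix' gl = (g : Matrix (Fin n) (Fin n) F) := by rw [hgl, LinearMap.toMatrix'_toLin']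
      rw [← h1, ha, map_smul]
      congr 1
      exact LinearMap.toMatrix'_id
    obtain ⟨v, hv⟩ := hv
    obtain ⟨B, P, hB, hP, hBP⟩ := comm_of_nonscalar (LinearMap.equivOfDetNeZero gl hdet0) hdet hv (by
      rw [finrank_fin_fun]
      rcases Nat.lt_or_ge n 3 with h | h
      · right
        rw [Nat.card_eq_fintype_card]
        exact hex (by omega)
      · exact Or.inl h)
    obtain ⟨a', ha'⟩ : ∃ a' : Matrix.SpecialLinearGroup (Fin n) F, (a' : Matrix (Fin n) (Fin n) F) =
      LinearMap.toMatrix' (B : (Fin n → F) →ₗ[F] (Fin n → F)) := ⟨⟨_, by rw [LinearMap.det_toMatrix', hB]⟩, rfl⟩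
    obtain ⟨b', hb'⟩ : ∃ b' : Matrix.SpecialLinearGroup (Fin n) F, (b' : Matrix (Fin n) (Fin n) F) =
      LinearMap.toMatrix' (P : (Fin n → F) →ₗ[F] (Fin n → F)) := ⟨⟨_, by rw [LinearMap.det_toMatrix', hP]⟩, rfl⟩
    refine ⟨a', b', ?_⟩
    rw [eq_mul_inv_iff_mul_eq, eq_mul_inv_iff_mul_eq]
    apply Subtype.ext
    rw [Matrix.SpecialLinearGroup.coe_mul, Matrix.SpecialLinearGroup.coe_mul, Matrix.SpecialLinearGroup.coe_mul, ha', hb']
    have h1 : LinearMap.toMatrix' gl = (g : Matrix (Fin n) (Fin n) F) := by rw [hgl, LinearMap.toMatrix'_toLin']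
    rw [← h1, ← LinearMap.toMatrix'_comp, ← LinearMap.toMatrix'_comp, ← LinearMap.toMatrix'_comp]
    congr 1
    rw [eq_mul_inv_iff_mul_eq, eq_mul_inv_iff_mul_eq] at hBP
    apply LinearMap.ext
    intro x
    have h2 := LinearEquiv.congr_fun hBP x
    exact h2

end Cfsg.Agent.Ore44
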